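import Mathlib
import Cfsg.Agent.H911.DG.PsuEven

/-!
# TEAM GEN, S4180: `SU` in odd dimension is generated by the diagonal subgroup, a Siegel element and a
Weyl element; a diagonal element commuting with the Siegel element (helper911)
-/

set_option autoImplicit false

namespace Cfsg.Agent.H911.DG

open Cfsg Cfsg.Agent.LieClassical.HermBasic Cfsg.Agent.LieClassical.HermSiegel
  Cfsg.Agent.LieClassical.HermGen Cfsg.Agent.H137.Herm Matrix

variable {F : Type*} [Field F] [Fintype F] {q n : ℕ}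

section Odd

variable {m : ℕ} [NeZero m] [NeZero (2 * m)] (D : Odd' q m F)

/-- Generation in odd dimension. -/
theorem odd_gen (hF : Fintype.card F = q ^ 2) (hm : 2 ≤ m) {μ : F} (hk : IsSiegel q (D.v 0) D.d μ)
    {H : Subgroup (SU (2 * m + 1) F q)} (hT : (Tz D.u : Subgroup (SU (2 * m + 1) F q)) ≤ H)
    (htH : siegel hF (D.v 0) D.d μ hk ∈ H) (hwH : D.w ∈ H) : H = ⊤ := by
  obtain ⟨z, hz0, hz1, hz2⟩ := exists_gen hF
  have hzq : z ^ q ≠ 0 := pow_ne_zero _ hz0
  obtain ⟨S, hS, hSd⟩ := D.exists_S hF hz0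
  have hST : S ∈ (Tz D.u : Subgroup (SU (2 * m + 1) F q)) := by
    rintro (_ | j)
    · exact ⟨_, mul_ne_zero hzq (inv_ne_zero hz0), hSd⟩
    · exact ⟨_, dg_ne hz0 (inv_ne_zero hzq) j, hS j⟩
  have hSH := hT hST
  have hS0 : act S (D.v 0) = z • D.v 0 := by rw [hS 0, dg_self]
  have htau : SM hF H (D.v 0) D.d μ := ⟨hk, htH⟩
  have hone : (1 : ZMod (2 * m)) = ((1 : ℕ) : ZMod (2 * m)) := Nat.cast_one.symm
  have hR : R hF H D.v 0 ((m : ZMod (2 * m)) + 1) := by
    refine D.R_of_tau hm hwH htau hSH hz0 hz1 hS0 ?_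
    rw [hS, dg_other]
    · rw [hone, ← Nat.cast_add, ← Nat.cast_zero, Ne, cast_inj (by omega) (by omega)]
      omega
    · rw [zero_add, hone, ← Nat.cast_add, Ne, cast_inj (by omega) (by omega)]
      omega
  have h10 : (1 : ZMod (2 * m)) ≠ 0 := by
    rw [hone, ← Nat.cast_zero, Ne, cast_inj (by omega) (by omega)]; omega
  have h1m : (1 : ZMod (2 * m)) ≠ 0 + (m : ZMod (2 * m)) := by
    rw [zero_add, hone, Ne, cast_inj (by omega) (by omega)]; omega
  have hR1 : R hF H D.v 0 1 :=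
    R.all hm D.std hwH (fun _ => one_ne_zero) D.hw' hR 0 1 h10 h1m
  refine D.finish hwH ?_ (Or.inr ⟨hm, hR⟩)
  -- all multiples of `d`
  obtain ⟨e, he, B⟩ := D.shift_tau hwH htau 1
  rw [Nat.cast_one] at B
  obtain ⟨kB, hB⟩ := B
  intro b
  set a := b / e with ha
  have h1 := (hR a).conj hB
  have e1 : act (siegel hF (D.v 1) (e • D.d) μ kB) (D.v 0) = D.v 0 := by
    apply act_siegel_of_orth
    · exact D.std.orth h1m
    · rw [herm_smul_right, D.hvd, mul_zero]
  have hpair : hermForm (2 * m + 1) F q (D.v ((m : ZMod (2 * m)) + 1)) (D.v 1) = 1 := by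
    have := D.std.pair' 1
    rwa [add_comm (1 : ZMod (2 * m)) (m : ZMod (2 * m))] at this
  have e2 : act (siegel hF (D.v 1) (e • D.d) μ kB) (a • D.v ((m : ZMod (2 * m)) + 1)) =
      a • D.v ((m : ZMod (2 * m)) + 1) + b • D.d + (μ * a) • D.v 1 := by
    rw [act_siegel, herm_smul_left, herm_smul_left, hpair, herm_smul_right, D.hvd, smul_smul,
      mul_one, mul_zero, mul_zero, sub_zero, ha, div_mul_cancel₀ _ he]
  rw [e1, e2] at h1
  have h2 : a • D.v ((m : ZMod (2 * m)) + 1) + b • D.d + (μ * a) • D.v 1 ∈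
      WS hF H (D.v 0) (D.std.iso 0) := ⟨_, h1⟩
  have h3 : a • D.v ((m : ZMod (2 * m)) + 1) ∈ WS hF H (D.v 0) (D.std.iso 0) := ⟨_, hR a⟩
  have h4 : (μ * a) • D.v 1 ∈ WS hF H (D.v 0) (D.std.iso 0) := ⟨_, hR1 _⟩
  have h5 := AddSubgroup.sub_mem _ (AddSubgroup.sub_mem _ h2 h4) h3
  have e3 : a • D.v ((m : ZMod (2 * m)) + 1) + b • D.d + (μ * a) • D.v 1 - (μ * a) • D.v 1 -
      a • D.v ((m : ZMod (2 * m)) + 1) = b • D.d := by abel
  rwa [e3] at h5

/-- A noncentral diagonal element commuting with the Siegel element. -/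
theorem odd_cent (hF : Fintype.card F = q ^ 2) (hm : 2 ≤ m) {μ : F} (hk : IsSiegel q (D.v 0) D.d μ) :
    ∃ h : SU (2 * m + 1) F q, h ∈ (Tz D.u : Subgroup (SU (2 * m + 1) F q)) ∧
      h * siegel hF (D.v 0) D.d μ hk = siegel hF (D.v 0) D.d μ hk * h ∧
      h ∉ Subgroup.center (SU (2 * m + 1) F q) := by
  have h2 := two_le hF
  have hv0 : ∀ i, D.v i ≠ 0 := by
    intro i h0
    have := D.std.pair i
    rw [h0, herm_zero_left] at this
    exact zero_ne_one this
  rcases h2.eq_or_lt with hq | hq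
  · -- `q = 2`
    obtain ⟨z, hz0, hz1, hz2⟩ := exists_gen hF
    have hz3 : z ^ 3 = 1 := by
      have := FiniteField.pow_card_sub_one_eq_one z hz0
      rwa [hF, ← hq] at this
    have hzz : z ≠ 1 := by
      have := hz2 1 one_pos (by rw [← hq]; norm_num)
      rwa [pow_one] at this
    have hzq : z ^ q ≠ 0 := pow_ne_zero _ hz0
    have hzq2 : z * z ^ q = 1 := by rw [← hq, ← pow_succ', hz3]
    have hzd : z ^ q * z⁻¹ = z := by
      have : z ^ q = z ^ 2 := by rw [← hq]
      rw [this, pow_two, mul_assoc, mul_inv_cancel₀ hz0, mul_one]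
    obtain ⟨S, hS, hSd⟩ := D.exists_S hF hz0
    rw [hzd] at hSd
    refine ⟨S, ?_, ?_, ?_⟩
    · rintro (_ | j)
      · exact ⟨_, hz0, hSd⟩
      · exact ⟨_, dg_ne hz0 (inv_ne_zero hzq) j, hS j⟩
    · refine comm_of_eig hk (s := z) (t := z) ?_ hSd ?_ ?_ (Or.inl hzq2)
      · rw [hS 0, dg_self]
      · rw [mul_comm]; exact hzq2
      · rw [hzq2, one_mul]
    · refine not_mem_center (x := D.v 0) (y := D.v (0 + 1)) (a := z) (b := 1) (hv0 _) one_ne_zero
        (D.hw' _) ?_ ?_ hzz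
      · rw [hS 0, dg_self]
      · rw [hS, zero_add, dg_other]
        · rw [← Nat.cast_one, ← Nat.cast_zero, Ne, cast_inj (by omega) (by omega)]; omega
        · rw [zero_add, ← Nat.cast_one, Ne, cast_inj (by omega) (by omega)]; omega
  · -- `q ≥ 3`
    obtain ⟨s, hs0, hsq, hs⟩ := exists_sub_ne_one hF hq
    have hex : ∃ S : SU (2 * m + 1) F q, ∀ o : Option (ZMod (2 * m)),
        act S (D.u o) = (o.elim 1 (fun j => dg 1 s s⁻¹ j) : F) •
          D.u ((1 : Equiv.Perm (Option (ZMod (2 * m)))) o) := by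
      refine D.W.exists_mono hF (by rw [Fintype.card_option, ZMod.card]) 1 (fun _ => rfl) _ ?_ ?_
      · rintro (_ | j)
        · simp only [Option.elim, sgO, Option.map_none]
          rw [one_pow, one_mul]
        · simp only [Option.elim, sgO, Option.map_some]
          apply dg_norm
          · rw [inv_pow, hsq, mul_inv_cancel₀ hs0]
          · rw [hsq, inv_mul_cancel₀ hs0]
      · rw [Fintype.prod_option]
        simp only [Option.elim, Equiv.Perm.sign_one, Units.val_one, Int.cast_one, one_mul]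
        rw [dg_prod, mul_inv_cancel₀ hs0]
    obtain ⟨S, hS'⟩ := hex
    have hS : ∀ j, act S (D.v j) = dg 1 s s⁻¹ j • D.v j := fun j => hS' (some j)
    have hSd : act S D.d = (1 : F) • D.d := hS' none
    have hS0 : act S (D.v 0) = (1 : F) • D.v 0 := by
      rw [hS 0, dg_other]
      · rw [← Nat.cast_one, ← Nat.cast_zero, Ne, cast_inj (by omega) (by omega)]; omega
      · rw [← Nat.cast_one, ← Nat.cast_zero, ← Nat.cast_add, Ne, cast_inj (by omega) (by omega)]; omega
    refine ⟨S, ?_, ?_, ?_⟩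
    · rintro (_ | j)
      · exact ⟨_, one_ne_zero, hSd⟩
      · exact ⟨_, dg_ne hs0 (inv_ne_zero hs0) j, hS j⟩
    · refine comm_of_eig hk (s := 1) (t := 1) hS0 hSd ?_ ?_ (Or.inl ?_)
      · rw [one_pow, one_mul]
      · rw [one_pow, one_mul, one_mul]
      · rw [one_pow, one_mul]
    · refine not_mem_center (x := D.v 0) (y := D.v (0 + 1)) (a := 1) (b := s) (hv0 _) one_ne_zero
        (D.hw' _) hS0 ?_ hs.symm
      rw [hS, zero_add, dg_self]

end Odd

end Cfsg.Agent.H911.DG
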