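import Mathlib
import Cfsg.Agent.H911.DG.PsuEven

/-!
# TEAM GEN, S4180: monomial subgroups of `SU`, the case `SU_4(3)` (helper911)
-/

set_option autoImplicit false

namespace Cfsg.Agent.H911.DG

open Cfsg Cfsg.Agent.LieClassical.HermBasic Cfsg.Agent.LieClassical.HermSiegel
  Cfsg.Agent.LieClassical.HermGen Cfsg.Agent.H137.Herm Matrix

section Mz

variable {F : Type*} [Field F] {q n : ℕ} {ι : Type}

/-- The monomial elements with respect to a frame, with permutation in `V`. -/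
def Mz (v : ι → Fin n → F) (V : Subgroup (Equiv.Perm ι)) : Subgroup (SU n F q) where
  carrier := {g | ∃ κ ∈ V, ∀ i, ∃ a : F, a ≠ 0 ∧ act g (v i) = a • v (κ i)}
  one_mem' := ⟨1, V.one_mem, fun i => ⟨1, one_ne_zero, by rw [act_one, one_smul]; rfl⟩⟩
  mul_mem' := by
    rintro g h ⟨κ, hκ, hg⟩ ⟨κ', hκ', hh⟩
    refine ⟨κ * κ', V.mul_mem hκ hκ', fun i => ?_⟩
    obtain ⟨b, hb, hb'⟩ := hh i
    obtain ⟨a, ha, ha'⟩ := hg (κ' i)
    exact ⟨b * a, mul_ne_zero hb ha, by rw [act_mul, hb', act_smul, ha', smul_smul]; rfl⟩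
  inv_mem' := by
    rintro g ⟨κ, hκ, hg⟩
    refine ⟨κ⁻¹, V.inv_mem hκ, fun i => ?_⟩
    obtain ⟨a, ha, ha'⟩ := hg (κ⁻¹ i)
    rw [show κ (κ⁻¹ i) = i from κ.apply_symm_apply i] at ha'
    exact ⟨a⁻¹, inv_ne_zero ha, act_inv_of ha ha'⟩

theorem Tz_le_Mz (v : ι → Fin n → F) (V : Subgroup (Equiv.Perm ι)) :
    (Tz v : Subgroup (SU n F q)) ≤ Mz v V := fun _ hg => ⟨1, V.one_mem, hg⟩

theorem Mz_conj' {v : ι → Fin n → F} {V : Subgroup (Equiv.Perm ι)} {w : SU n F q} {γ : ι → F}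
    (π : Equiv.Perm ι) (hV : ∀ κ ∈ V, π⁻¹ * κ * π ∈ V) (hγ : ∀ i, γ i ≠ 0)
    (hw : ∀ i, act w (v i) = γ i • v (π i)) :
    ∀ h ∈ (Mz v V : Subgroup (SU n F q)), w⁻¹ * h * w ∈ (Mz v V : Subgroup (SU n F q)) := by
  rintro h ⟨κ, hκ, hh⟩
  refine ⟨π⁻¹ * κ * π, hV κ hκ, fun i => ?_⟩
  obtain ⟨a, ha, ha'⟩ := hh (π i)
  set j := π⁻¹ (κ (π i)) with hj
  have hj' : π j = κ (π i) := π.apply_symm_apply _
  refine ⟨γ i * a * (γ j)⁻¹, mul_ne_zero (mul_ne_zero (hγ i) ha) (inv_ne_zero (hγ j)), ?_⟩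
  have h1 := act_inv_of (hγ j) (hw j)
  rw [hj'] at h1
  rw [act_mul, act_mul, hw, act_smul, ha', act_smul, act_smul, h1, smul_smul, smul_smul]
  rfl

end Mz

section Cop

variable {F : Type*} [Field F] [Fintype F] {q n : ℕ} {ι : Type} [DecidableEq ι] [Fintype ι]
  {σ : ι → ι} {v : ι → Fin n → F}

omit [Fintype F] [Fintype ι] in
theorem witt_ne_zero (W : Witt q σ v) (i : ι) : v i ≠ 0 := by
  intro h0
  have h2 := W.gram i (σ i)
  rw [if_pos rfl, h0, herm_zero_left] at h2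
  exact zero_ne_one h2

omit [Fintype F] in
theorem witt_idx_eq (W : Witt q σ v) {i j : ι} {a b : F} (ha : a ≠ 0) (h : a • v i = b • v j) : i = j := by
  by_contra hij
  have h1 := W.linInd
  have h2 := (linearIndependent_iff'.1 h1) {i, j} (fun k => if k = i then a else -b) (by
    rw [Finset.sum_pair hij, if_pos rfl, if_neg (Ne.symm hij), h, neg_smul, add_neg_cancel]) i (by simp)
  rw [if_pos rfl] at h2
  exact ha h2

theorem Mz_coprime (W : Witt q σ v) (hc : Fintype.card ι = n) {p : ℕ} (hp : p.Prime) [CharP F p]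
    {V : Subgroup (Equiv.Perm ι)} (hV : ∀ κ ∈ V, κ ^ p = 1 → κ = 1) :
    ¬ p ∣ Nat.card (Mz v V : Subgroup (SU n F q)) := by
  intro h
  have : Fact p.Prime := ⟨hp⟩
  obtain ⟨g, hg⟩ := exists_prime_orderOf_dvd_card' p h
  have hgp : (g : SU n F q) ^ p = 1 := by
    have := pow_orderOf_eq_one g
    rw [hg] at this
    exact_mod_cast congrArg Subtype.val this
  obtain ⟨κ, hκ, hgκ⟩ := g.2
  have h1 : ∀ (k : ℕ) (i : ι), ∃ a : F, a ≠ 0 ∧ act ((g : SU n F q) ^ k) (v i) = a • v ((κ ^ k) i) := by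
    intro k
    induction k with
    | zero => exact fun i => ⟨1, one_ne_zero, by rw [pow_zero, pow_zero, act_one, one_smul]; rfl⟩
    | succ k ih =>
      intro i
      obtain ⟨a, ha, ha'⟩ := ih i
      obtain ⟨b, hb, hb'⟩ := hgκ ((κ ^ k) i)
      refine ⟨a * b, mul_ne_zero ha hb, ?_⟩
      rw [pow_succ', act_mul, ha', act_smul, hb', smul_smul, pow_succ']
      rfl
  have h2 : κ ^ p = 1 := by
    ext i
    obtain ⟨a, ha, ha'⟩ := h1 p i
    rw [hgp, act_one] at ha'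
    have h3 := witt_idx_eq W (i := i) (a := 1) (b := a) one_ne_zero (by rw [one_smul]; exact ha')
    rw [← h3]
    rfl
  have h3 := hV κ hκ h2
  have h4 : (g : SU n F q) ∈ (Tz v : Subgroup (SU n F q)) := by
    intro i
    obtain ⟨a, ha, ha'⟩ := hgκ i
    refine ⟨a, ha, ?_⟩
    rw [ha', h3]
    rfl
  have h5 : g = 1 := Subtype.ext (eq_one_of_Tz W hc hp h4 hgp)
  rw [h5, orderOf_one] at hg
  exact hp.one_lt.ne hg

end Cop

/-! ### The dihedral group of permutations -/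

section Dih

variable {m : ℕ}

/-- The permutations `i ↦ i + 2 c` and `i ↦ 2 c + 1 - i`. -/
def Dih (m : ℕ) : Subgroup (Equiv.Perm (ZMod (2 * m))) where
  carrier := {κ | ∃ c : ZMod (2 * m), (∀ i, κ i = i + 2 * c) ∨ (∀ i, κ i = 2 * c + 1 - i)}
  one_mem' := ⟨0, Or.inl fun i => by rw [mul_zero, add_zero]; rfl⟩
  mul_mem' := by
    rintro κ κ' ⟨c, h | h⟩ ⟨d, h' | h'⟩
    · exact ⟨c + d, Or.inl fun i => by rw [Equiv.Perm.mul_apply, h', h]; ring⟩
    · exact ⟨c + d, Or.inr fun i => by rw [Equiv.Perm.mul_apply, h', h]; ring⟩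
    · exact ⟨c - d, Or.inr fun i => by rw [Equiv.Perm.mul_apply, h', h]; ring⟩
    · exact ⟨c - d, Or.inl fun i => by rw [Equiv.Perm.mul_apply, h', h]; ring⟩
  inv_mem' := by
    rintro κ ⟨c, h | h⟩
    · exact ⟨-c, Or.inl fun i => by rw [Equiv.Perm.inv_eq_iff_eq, h]; ring⟩
    · exact ⟨c, Or.inr fun i => by rw [Equiv.Perm.inv_eq_iff_eq, h]; ring⟩

theorem Dih_conj (κ : Equiv.Perm (ZMod (2 * m))) (hκ : κ ∈ Dih m) :
    (Equiv.addRight (1 : ZMod (2 * m)))⁻¹ * κ * Equiv.addRight (1 : ZMod (2 * m)) ∈ Dih m := by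
  obtain ⟨c, h | h⟩ := hκ
  · refine ⟨c, Or.inl fun i => ?_⟩
    rw [Equiv.Perm.mul_apply, Equiv.Perm.mul_apply, Equiv.Perm.inv_eq_iff_eq, h, Equiv.coe_addRight]
    ring
  · refine ⟨c - 1, Or.inr fun i => ?_⟩
    rw [Equiv.Perm.mul_apply, Equiv.Perm.mul_apply, Equiv.Perm.inv_eq_iff_eq, h, Equiv.coe_addRight]
    ring

theorem Dih_sq {κ : Equiv.Perm (ZMod (2 * 2))} (hκ : κ ∈ Dih 2) : κ * κ = 1 := by
  have h4 : (4 : ZMod (2 * 2)) = 0 := by decide
  obtain ⟨c, h | h⟩ := hκ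
  · ext i
    rw [Equiv.Perm.mul_apply, h, h, Equiv.Perm.one_apply]
    linear_combination c * h4
  · ext i
    rw [Equiv.Perm.mul_apply, h, h, Equiv.Perm.one_apply]
    ring

theorem Dih_cube {κ : Equiv.Perm (ZMod (2 * 2))} (hκ : κ ∈ Dih 2) (h : κ ^ 3 = 1) : κ = 1 := by
  have h1 := Dih_sq hκ
  calc κ = (κ * κ) * κ := by rw [h1, one_mul]
    _ = κ ^ 3 := by rw [pow_succ, pow_two]
    _ = 1 := h

end Dih

/-! ### The case `SU_4(3)` -/

section Four

variable {F : Type*} [Field F] [Fintype F]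

theorem four_cent (hF : Fintype.card F = 3 ^ 2) {v : ZMod (2 * 2) → Fin (2 * 2) → F}
    (W : Witt 3 (fun j => j + ((2 : ℕ) : ZMod (2 * 2))) v) {γ : ZMod (2 * 2) → F} (hγ0 : ∀ j, γ j ≠ 0)
    {w : SU (2 * 2) F 3} (hw : ∀ j, act w (v j) = γ j • v (j + 1))
    (hk : IsSiegel 3 (v 0) (v (((2 : ℕ) : ZMod (2 * 2)) + 1)) (0 : F)) :
    ∃ h : SU (2 * 2) F 3, h ∈ (Mz v (Dih 2) : Subgroup (SU (2 * 2) F 3)) ∧
      h * siegel hF (v 0) (v (((2 : ℕ) : ZMod (2 * 2)) + 1)) 0 hk =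
        siegel hF (v 0) (v (((2 : ℕ) : ZMod (2 * 2)) + 1)) 0 hk * h ∧
      h ∉ Subgroup.center (SU (2 * 2) F 3) := by
  have h3 : ((2 : ℕ) : ZMod (2 * 2)) + 1 = 3 := by decide
  set γ' : ZMod (2 * 2) → F := fun i => if i = 0 ∨ i = 2 then 1 else -1 with hγ'
  obtain ⟨g, hg⟩ : ∃ g : SU (2 * 2) F 3, ∀ i, act g (v i) = γ' i • v (Equiv.subLeft (3 : ZMod (2 * 2)) i) := by
    refine W.exists_mono hF (ZMod.card _) (Equiv.subLeft (3 : ZMod (2 * 2))) ?_ γ' ?_ ?_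
    · decide
    · intro i
      have h4 : ∀ i : ZMod (2 * 2), (i = 0 ∨ i = 2) ↔ (i + ((2 : ℕ) : ZMod (2 * 2)) = 0 ∨
          i + ((2 : ℕ) : ZMod (2 * 2)) = 2) := by decide
      simp only [hγ']
      by_cases h5 : i = 0 ∨ i = 2
      · rw [if_pos h5, if_pos ((h4 i).1 h5), one_pow, one_mul]
      · rw [if_neg h5, if_neg (fun h => h5 ((h4 i).2 h))]
        ring
    · have h4 : Equiv.Perm.sign (Equiv.subLeft (3 : ZMod (2 * 2))) = 1 := by decide
      rw [h4]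
      have h5 : (Finset.univ : Finset (ZMod (2 * 2))) = {0, 1, 2, 3} := by decide
      rw [h5, Finset.prod_insert (by decide), Finset.prod_insert (by decide),
        Finset.prod_insert (by decide), Finset.prod_singleton]
      simp only [hγ']
      rw [if_pos (by decide), if_neg (by decide), if_pos (by decide), if_neg (by decide)]
      simp
  have hg0 : act g (v 0) = v 3 := by
    rw [hg, show γ' 0 = 1 from if_pos (by decide), one_smul]
    rfl
  have hg3 : act g (v 3) = -v 0 := by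
    rw [hg, show γ' 3 = -1 from if_neg (by decide), neg_smul, one_smul]
    rfl
  have hv : Std 3 v := W.gram
  have hγ'0 : ∀ i, γ' i ≠ 0 := by
    intro i
    simp only [hγ']
    split_ifs
    · exact one_ne_zero
    · exact neg_ne_zero.2 one_ne_zero
  refine ⟨g, ⟨Equiv.subLeft 3, ⟨1, Or.inr fun i => ?_⟩, fun i => ⟨γ' i, hγ'0 i, hg i⟩⟩, ?_, ?_⟩
  · rw [Equiv.subLeft_apply]
    norm_num
  · rw [← mul_inv_eq_iff_eq_mul, conj_siegel]
    apply ext_act
    intro x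
    rw [act_siegel, act_siegel]
    rw [h3, hg0, hg3, herm_neg_right hF]
    funext i
    simp only [Pi.add_apply, Pi.smul_apply, smul_eq_mul, Pi.neg_apply]
    ring
  · intro hc
    have h4 := congrArg (fun t => act t (v 0)) (Subgroup.mem_center_iff.1 hc w)
    simp only [act_mul, hg0, hw, act_smul, zero_add] at h4
    rw [hg, smul_smul] at h4
    have h5 := witt_idx_eq W (hγ0 3) h4
    exact absurd h5 (by decide)

end Four

end Cfsg.Agent.H911.DG
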