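import Mathlib
import Cfsg.Agent.H911.DG.PsuKlein

/-!
# TEAM GEN, S4180: transvections of `SU_n(2)`; the groups `SU_4(2)` and `SU_6(2)` (helper911)
-/

set_option autoImplicit false

namespace Cfsg.Agent.H911.DG

open Cfsg Cfsg.Agent.LieClassical.HermBasic Cfsg.Agent.LieClassical.HermSiegel
  Cfsg.Agent.LieClassical.HermGen Cfsg.Agent.H137.Herm Matrix

variable {F : Type*} [Field F] [Fintype F] {n : ℕ}

theorem two_eq_zero (hF : Fintype.card F = 2 ^ 2) : (2 : F) = 0 := by
  have h : ((Fintype.card F : ℕ) : F) = 0 := FiniteField.cast_card_eq_zero F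
  rw [hF] at h
  push_cast at h
  have h' : (2 : F) * 2 = 0 := by linear_combination h
  exact mul_self_eq_zero.1 h'

theorem cube_eq_one (hF : Fintype.card F = 2 ^ 2) {x : F} (hx : x ≠ 0) : x ^ 3 = 1 := by
  have := FiniteField.pow_card_sub_one_eq_one x hx
  rwa [hF] at this

/-- A primitive cube root of one. -/
theorem exists_omega (hF : Fintype.card F = 2 ^ 2) : ∃ z : F, z ≠ 0 ∧ z ≠ 1 ∧ z ^ 2 + z + 1 = 0 := by
  obtain ⟨z, hz0, hz1, hz2⟩ := exists_gen hF
  have hzz : z ≠ 1 := by
    have := hz2 1 one_pos (by norm_num)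
    rwa [pow_one] at this
  refine ⟨z, hz0, hzz, ?_⟩
  have h1 : (z - 1) * (z ^ 2 + z + 1) = 0 := by linear_combination cube_eq_one hF hz0
  rcases mul_eq_zero.1 h1 with h | h
  · exact absurd (sub_eq_zero.1 h) hzz
  · exact h

/-- The standard basis. -/
def eb (i : Fin n) : Fin n → F := Pi.single i 1

theorem herm_eb {q : ℕ} (hF : Fintype.card F = q ^ 2) (i j : Fin n) :
    hermForm n F q (eb i) (eb j) = if j = i then 1 else 0 := by
  rw [eb, eb, herm_single_right hF, Pi.single_apply, one_pow, mul_one]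

theorem witt_eb {q : ℕ} (hF : Fintype.card F = q ^ 2) :
    Witt q (fun i : Fin n => i) (eb : Fin n → Fin n → F) :=
  ⟨fun _ => rfl, fun i j => herm_eb hF i j⟩

theorem herm_eb_right {q : ℕ} (hF : Fintype.card F = q ^ 2) (x : Fin n → F) (i : Fin n) :
    hermForm n F q x (eb i) = x i := by
  rw [eb, herm_single_right hF, one_pow, mul_one]

/-- The transvection with vector `x` is in `H`. -/
def TV (hF : Fintype.card F = 2 ^ 2) (H : Subgroup (SU n F 2)) (x : Fin n → F) : Prop :=
  SM hF H x 0 1

variable {hF : Fintype.card F = 2 ^ 2} {H : Subgroup (SU n F 2)} {x y u : Fin n → F}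

theorem TV.conj (h : TV hF H x) {g : SU n F 2} (hg : g ∈ H) : TV hF H (act g x) :=
  (SM.conj h hg).congr rfl (act_zero g) rfl

theorem TV.smul {c : F} (h : TV hF H (c • x)) (hc : c ≠ 0) : TV hF H x :=
  (SM.smul h hc).congr rfl (smul_zero _) (by rw [mul_one, ← pow_succ', cube_eq_one hF hc])

theorem TV.iso (h : TV hF H x) : hermForm n F 2 x x = 0 := h.1.iso

theorem TV.move (h : TV hF H x) (h' : TV hF H y) : TV hF H (y + hermForm n F 2 y x • x) := by
  obtain ⟨k, hk⟩ := h
  have h1 := TV.conj h' hk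
  have h2 : act (siegel hF x 0 1 k) y = y + hermForm n F 2 y x • x := by
    rw [act_siegel, herm_zero_right hF, smul_zero, add_zero, sub_zero, one_mul]
  rwa [h2] at h1

/-- Three transvections give a Siegel element. -/
theorem TV.toSM (h : TV hF H u) (h' : TV hF H x) (h'' : TV hF H (u + x))
    (hux : hermForm n F 2 u x = 0) : SM hF H u x 0 := by
  have hu := h.iso
  have hx := h'.iso
  have hxu : hermForm n F 2 x u = 0 := herm_eq_zero_swap hF hux
  obtain ⟨k, hk⟩ := h
  obtain ⟨k', hk'⟩ := h'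
  obtain ⟨k'', hk''⟩ := h''
  have h2 := two_eq_zero hF
  have hs : IsSiegel 2 u x (0 : F) := ⟨hu, hxu, by rw [hx]; norm_num⟩
  have e : siegel hF u 0 1 k * siegel hF x 0 1 k' * siegel hF (u + x) 0 1 k'' = siegel hF u x 0 hs := by
    apply ext_act
    intro y
    simp only [act_mul, act_siegel, herm_zero_right hF, herm_add_left, herm_add_right hF, herm_smul_left,
      hu, hx, hux, hxu, smul_zero, add_zero, sub_zero, one_mul, mul_zero]
    funext i
    simp only [Pi.add_apply, Pi.smul_apply, smul_eq_mul]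
    ring_nf
    linear_combination (hermForm n F 2 y u * u i + hermForm n F 2 y x * x i + hermForm n F 2 y x * u i) * h2
  refine ⟨hs, ?_⟩
  rw [← e]
  exact H.mul_mem (H.mul_mem hk hk') hk''

/-- All transvections with vectors of weight two and four suffice. -/
theorem eq_top_of_TV (hn : 4 ≤ n)
    (h2 : ∀ i j : Fin n, i ≠ j → ∀ a b : F, a ≠ 0 → b ≠ 0 → TV hF H (a • eb i + b • eb j))
    (h4 : ∀ i j k l : Fin n, i ≠ j → i ≠ k → i ≠ l → j ≠ k → j ≠ l → k ≠ l → ∀ a b c d : F, a ≠ 0 →
      b ≠ 0 → c ≠ 0 → d ≠ 0 → TV hF H (a • eb i + b • eb j + c • eb k + d • eb l)) : H = ⊤ := by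
  have h20 := two_eq_zero hF
  obtain ⟨z, hz0, hz1, hz⟩ := exists_omega hF
  have hz1' : z + 1 ≠ 0 := by
    intro h
    apply hz1
    linear_combination h - h20
  have W := witt_eb (n := n) hF
  -- the full Siegel group of a weight two vector
  have hfull : ∀ i j : Fin n, i ≠ j → ∀ c : F, c ≠ 0 → Full hF H ((1 : F) • eb i + c • eb j) := by
    intro i j hij c hc
    set u : Fin n → F := (1 : F) • eb i + c • eb j with hu
    have hTu := h2 i j hij 1 c one_ne_zero hc
    have huu : hermForm n F 2 u u = 0 := hTu.iso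
    have hui : u i = 1 := by
      rw [hu]; simp [eb, hij]
    have huj : u j = c := by
      rw [hu]; simp [eb, hij.symm]
    have hu0 : u ≠ 0 := by
      intro h
      rw [h] at hui
      exact zero_ne_one hui
    refine full_of_WS (by omega) huu hu0 ?_
    have hpair : ∀ k l : Fin n, i ≠ k → i ≠ l → j ≠ k → j ≠ l → k ≠ l → ∀ a b : F, a ≠ 0 → b ≠ 0 →
        a • eb k + b • eb l ∈ WS hF H u huu := by
      intro k l hik hil hjk hjl hkl a b ha hb
      refine ⟨0, TV.toSM hTu (h2 k l hkl a b ha hb) ?_ ?_⟩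
      · have := h4 i j k l hij hik hil hjk hjl hkl 1 c a b one_ne_zero hc ha hb
        rwa [add_assoc] at this
      · simp only [hu, herm_add_left, herm_add_right hF, herm_smul_left, herm_smul_right, herm_eb hF,
          if_neg hik.symm, if_neg hil.symm, if_neg hjk.symm, if_neg hjl.symm]
        ring
    have hone : ∀ k : Fin n, i ≠ k → j ≠ k → ∀ a : F, a • eb k ∈ WS hF H u huu := by
      intro k hik hjk a
      by_cases ha : a = 0
      · rw [ha, zero_smul]; exact AddSubgroup.zero_mem _
      · obtain ⟨l, hl⟩ : ∃ l : Fin n, l ∉ ({i, j, k} : Finset (Fin n)) := by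
          by_contra hne
          push Not at hne
          have h5 : (Finset.univ : Finset (Fin n)) ⊆ {i, j, k} := fun x _ => hne x
          have h6 := Finset.card_le_card h5
          have h7 : ({i, j, k} : Finset (Fin n)).card ≤ 3 := Finset.card_le_three
          rw [Finset.card_univ, Fintype.card_fin] at h6
          omega
        simp only [Finset.mem_insert, Finset.mem_singleton, not_or] at hl
        obtain ⟨hli, hlj, hlk⟩ := hl
        have h5 := hpair k l hik (Ne.symm hli) hjk (Ne.symm hlj) (Ne.symm hlk) (z * a) 1 (mul_ne_zero hz0 ha)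
          one_ne_zero
        have h6 := hpair k l hik (Ne.symm hli) hjk (Ne.symm hlj) (Ne.symm hlk) ((z + 1) * a) 1
          (mul_ne_zero hz1' ha) one_ne_zero
        have h7 := AddSubgroup.add_mem _ h5 h6
        have h8 : (z * a) • eb k + (1 : F) • eb l + (((z + 1) * a) • eb k + (1 : F) • eb l) =
            (a • eb k : Fin n → F) := by
          funext t
          simp only [Pi.add_apply, Pi.smul_apply, smul_eq_mul]
          linear_combination (z * a * (eb k : Fin n → F) t + (eb l : Fin n → F) t) * h20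
        rwa [h8] at h7
    intro y hy
    -- reduce modulo `u`
    have hy' : y i + y j * c ^ 2 = 0 := by
      have h5 : hermForm n F 2 y u = y i + y j * c ^ 2 := by
        rw [hu, herm_add_right hF, herm_smul_right, herm_smul_right, herm_eb_right hF, herm_eb_right hF]
        ring
      rw [← h5]; exact hy
    set y' : Fin n → F := y - y i • u with hy'd
    have hy'i : y' i = 0 := by
      rw [hy'd, Pi.sub_apply, Pi.smul_apply, hui, smul_eq_mul, mul_one, sub_self]
    have hy'j : y' j = 0 := by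
      rw [hy'd, Pi.sub_apply, Pi.smul_apply, huj, smul_eq_mul]
      linear_combination (-c) * hy' + y j * cube_eq_one hF hc + y j * h20
    have h5 : y = y' + y i • u := by rw [hy'd, sub_add_cancel]
    rw [h5]
    refine AddSubgroup.add_mem _ ?_ (mem_WS_self _ _)
    rw [W.expand (by rw [Fintype.card_fin]) y']
    refine AddSubgroup.sum_mem _ fun t _ => ?_
    rw [herm_eb_right hF]
    by_cases ht : t = i
    · rw [ht, hy'i, zero_smul]; exact AddSubgroup.zero_mem _
    · by_cases ht' : t = j
      · rw [ht', hy'j, zero_smul]; exact AddSubgroup.zero_mem _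
      · exact hone t (Ne.symm ht) (Ne.symm ht') _
  let i : Fin n := ⟨0, by omega⟩
  let j : Fin n := ⟨1, by omega⟩
  have hij : i ≠ j := by simp [i, j]
  have f1 := hfull i j hij 1 one_ne_zero
  have f2 := hfull i j hij z hz0
  refine eq_top_of_full (by omega) (h2 i j hij 1 1 one_ne_zero one_ne_zero).iso
    (h2 i j hij 1 z one_ne_zero hz0).iso ?_ f1 f2
  simp only [herm_add_left, herm_add_right hF, herm_smul_left, herm_smul_right, herm_eb hF,
    if_neg hij, if_neg hij.symm, if_true]
  intro h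
  apply hz0
  linear_combination (-1 : F) * h + hz

/-- From weight four to weight two. -/
theorem TV_pair {i j k l : Fin n} (hij : i ≠ j) (hik : i ≠ k) (hil : i ≠ l) (hjk : j ≠ k) (hjl : j ≠ l)
    (hkl : k ≠ l) (h4 : ∀ a b c d : F, a ≠ 0 →
      b ≠ 0 → c ≠ 0 → d ≠ 0 → TV hF H (a • eb i + b • eb j + c • eb k + d • eb l)) {a b : F}
    (ha : a ≠ 0) (hb : b ≠ 0) : TV hF H (a • eb i + b • eb j) := by
  have h20 := two_eq_zero hF
  obtain ⟨z, hz0, hz1, hz⟩ := exists_omega hF
  have hz2 : z ^ 2 ≠ 0 := pow_ne_zero _ hz0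
  have hz3 := cube_eq_one hF hz0
  have h1 := h4 (z * a) (z ^ 2 * b) 1 1 (mul_ne_zero hz0 ha) (mul_ne_zero hz2 hb) one_ne_zero one_ne_zero
  have h2 := h4 (z ^ 2 * a) (z * b) 1 1 (mul_ne_zero hz2 ha) (mul_ne_zero hz0 hb) one_ne_zero one_ne_zero
  have h3 := TV.move h1 h2
  have e1 : hermForm n F 2 ((z ^ 2 * a) • eb i + (z * b) • eb j + (1 : F) • eb k + (1 : F) • eb l)
      ((z * a) • eb i + (z ^ 2 * b) • eb j + (1 : F) • eb k + (1 : F) • eb l) = 1 := by
    simp only [herm_add_left, herm_add_right hF, herm_smul_left, herm_smul_right, herm_eb hF,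
      if_neg hij, if_neg hij.symm, if_neg hik, if_neg hik.symm, if_neg hil, if_neg hil.symm,
      if_neg hjk, if_neg hjk.symm, if_neg hjl, if_neg hjl.symm, if_neg hkl, if_neg hkl.symm, if_true]
    have ha3 := cube_eq_one hF ha
    have hb3 := cube_eq_one hF hb
    linear_combination (z ^ 4) * ha3 + (z ^ 5) * hb3 + (z + z ^ 2) * hz3 + hz
  refine SM.congr h3 ?_ rfl rfl
  rw [e1]
  funext t
  simp only [Pi.add_apply, Pi.smul_apply, smul_eq_mul]
  linear_combination (a * (eb i : Fin n → F) t + b * (eb j : Fin n → F) t) * hz +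
    ((eb k : Fin n → F) t + (eb l : Fin n → F) t - a * (eb i : Fin n → F) t - b * (eb j : Fin n → F) t) * h20

/-- Diagonal elements. -/
theorem exists_diag (hF : Fintype.card F = 2 ^ 2) (a : Fin n → F) (ha : ∀ i, a i ≠ 0) (h : ∏ i, a i = 1) :
    ∃ g ∈ (Tz (eb : Fin n → Fin n → F) : Subgroup (SU n F 2)), ∀ i, act g (eb i) = a i • eb i := by
  obtain ⟨g, hg⟩ := (witt_eb (n := n) hF).exists_mono hF (Fintype.card_fin n) 1 (fun _ => rfl) a
    (fun i => by rw [← pow_succ', cube_eq_one hF (ha i)])
    (by rw [h, Equiv.Perm.sign_one]; simp)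
  exact ⟨g, fun i => ⟨a i, ha i, hg i⟩, hg⟩

end Cfsg.Agent.H911.DG
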