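import Mathlib
import Cfsg.Agent.H911.DG.PsuTwo

/-!
# TEAM GEN, S4180: generation of `SU_4(2)` and `SU_6(2)` (helper911)
-/

set_option autoImplicit false

namespace Cfsg.Agent.H911.DG

open Cfsg Cfsg.Agent.LieClassical.HermBasic Cfsg.Agent.LieClassical.HermSiegel
  Cfsg.Agent.LieClassical.HermGen Cfsg.Agent.H137.Herm Matrix

variable {F : Type*} [Field F] [Fintype F]

theorem fin4_mem {i j k l t : Fin 4} (hij : i ≠ j) (hik : i ≠ k) (hil : i ≠ l) (hjk : j ≠ k) (hjl : j ≠ l)
    (hkl : k ≠ l) : t = i ∨ t = j ∨ t = k ∨ t = l := by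
  omega

/-- `SU_4(2)` is generated by the diagonal group and a transvection. -/
theorem four_two_gen (hF : Fintype.card F = 2 ^ 2) {H : Subgroup (SU 4 F 2)}
    (hD : (Tz (eb : Fin 4 → Fin 4 → F) : Subgroup (SU 4 F 2)) ≤ H)
    (hT : TV hF H (∑ i, eb i : Fin 4 → F)) : H = ⊤ := by
  have key : ∀ x : Fin 4 → F, (∀ t, x t ≠ 0) → TV hF H x := by
    intro x hx
    set P := ∏ t, x t with hP
    have hP0 : P ≠ 0 := Finset.prod_ne_zero_iff.2 fun t _ => hx t
    have hl : P⁻¹ ≠ 0 := inv_ne_zero hP0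
    obtain ⟨g, hg, hg'⟩ := exists_diag hF (fun t => P⁻¹ * x t) (fun t => mul_ne_zero hl (hx t)) (by
      rw [Finset.prod_mul_distrib, Finset.prod_const, Finset.card_univ, Fintype.card_fin, ← hP]
      have h3 := cube_eq_one hF hl
      calc P⁻¹ ^ 4 * P = P⁻¹ ^ 3 * (P⁻¹ * P) := by ring
        _ = 1 := by rw [h3, inv_mul_cancel₀ hP0, one_mul])
    have h1 := hT.conj (hD hg)
    rw [act_sum] at h1
    refine TV.smul (c := P⁻¹) (SM.congr h1 ?_ rfl rfl) hl
    funext t
    rw [Finset.sum_apply, Finset.sum_eq_single t]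
    · rw [hg']; simp [eb]
    · intro s _ hs
      rw [hg']; simp [eb, hs.symm]
    · intro h; exact absurd (Finset.mem_univ t) h
  have h4 : ∀ i j k l : Fin 4, i ≠ j → i ≠ k → i ≠ l → j ≠ k → j ≠ l → k ≠ l → ∀ a b c d : F, a ≠ 0 →
      b ≠ 0 → c ≠ 0 → d ≠ 0 → TV hF H (a • eb i + b • eb j + c • eb k + d • eb l) := by
    intro i j k l hij hik hil hjk hjl hkl a b c d ha hb hc hd
    apply key
    intro t
    rcases fin4_mem (t := t) hij hik hil hjk hjl hkl with h | h | h | h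
    · rw [h]; simpa [eb, hij, hik, hil] using ha
    · rw [h]; simpa [eb, hij.symm, hjk, hjl] using hb
    · rw [h]; simpa [eb, hik.symm, hjk.symm, hkl] using hc
    · rw [h]; simpa [eb, hil.symm, hjl.symm, hkl.symm] using hd
  refine eq_top_of_TV le_rfl ?_ h4
  intro i j hij a b ha hb
  obtain ⟨k, l, hik, hil, hjk, hjl, hkl⟩ : ∃ k l : Fin 4, i ≠ k ∧ i ≠ l ∧ j ≠ k ∧ j ≠ l ∧ k ≠ l := by
    revert i j
    decide
  exact TV_pair hij hik hil hjk hjl hkl (h4 i j k l hij hik hil hjk hjl hkl) ha hb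

/-- The permutations realised in `H`. -/
def PP {n q : ℕ} (H : Subgroup (SU n F q)) : Subgroup (Equiv.Perm (Fin n)) where
  carrier := {π | ∃ g ∈ H, ∀ i, act g (eb i) = eb (π i)}
  one_mem' := ⟨1, H.one_mem, fun i => act_one _⟩
  mul_mem' := by
    rintro π π' ⟨g, hg, hg'⟩ ⟨h, hh, hh'⟩
    exact ⟨g * h, H.mul_mem hg hh, fun i => by rw [act_mul, hh', hg']; rfl⟩
  inv_mem' := by
    rintro π ⟨g, hg, hg'⟩
    refine ⟨g⁻¹, H.inv_mem hg, fun i => ?_⟩
    have h1 := hg' (π⁻¹ i)
    rw [show π (π⁻¹ i) = i from π.apply_symm_apply i] at h1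
    rw [← h1, act_inv_act]

/-- `SU_6(2)` is generated by the diagonal group, a permutation and a transvection. -/
theorem six_two_gen (hF : Fintype.card F = 2 ^ 2) {H : Subgroup (SU 6 F 2)}
    (hD : (Tz (eb : Fin 6 → Fin 6 → F) : Subgroup (SU 6 F 2)) ≤ H) {w : SU 6 F 2} (hwH : w ∈ H)
    (hw : ∀ i, act w (eb i) = eb (finRotate 6 i))
    (hT : TV hF H (eb 0 + eb 1 + eb 2 + eb 3 : Fin 6 → F)) : H = ⊤ := by
  have h20 := two_eq_zero hF
  have c1 : ∀ a b c d : F, a ≠ 0 → b ≠ 0 → c ≠ 0 → d ≠ 0 →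
      TV hF H (a • eb 0 + b • eb 1 + c • eb 2 + d • eb 3 : Fin 6 → F) := by
    intro a b c d ha hb hc hd
    have habcd : a * b * c * d ≠ 0 := mul_ne_zero (mul_ne_zero (mul_ne_zero ha hb) hc) hd
    obtain ⟨g, hg, hg'⟩ := exists_diag hF (![a, b, c, d, (a * b * c * d)⁻¹, 1] : Fin 6 → F) (by
      intro i
      fin_cases i
      · exact ha
      · exact hb
      · exact hc
      · exact hd
      · exact inv_ne_zero habcd
      · exact one_ne_zero) (by
      rw [Fin.prod_univ_six]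
      show a * b * c * d * (a * b * c * d)⁻¹ * 1 = 1
      rw [mul_one, mul_inv_cancel₀ habcd])
    have h1 := hT.conj (hD hg)
    rw [act_add, act_add, act_add, hg', hg', hg', hg'] at h1
    exact h1
  have c2 : TV hF H ((1 : F) • eb 0 + (1 : F) • eb 1 : Fin 6 → F) :=
    TV_pair (k := 2) (l := 3) (by decide) (by decide) (by decide) (by decide) (by decide) (by decide) c1
      one_ne_zero one_ne_zero
  have hP : PP H = ⊤ := by
    rw [eq_top_iff, ← Equiv.Perm.closure_cycle_adjacent_swap (σ := finRotate 6) isCycle_finRotate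
      support_finRotate 0, Subgroup.closure_le]
    rintro π (rfl | hπ)
    · exact ⟨w, hwH, hw⟩
    · rw [Set.mem_singleton_iff] at hπ
      obtain ⟨k, hk⟩ := c2
      refine ⟨_, hk, fun i => ?_⟩
      have h01 : finRotate 6 0 = 1 := by decide
      rw [hπ, h01, act_siegel, herm_zero_right hF, smul_zero, add_zero, sub_zero, one_mul,
        herm_add_right hF, herm_smul_right, herm_smul_right, herm_eb_right hF, herm_eb_right hF]
      by_cases hi0 : i = 0
      · subst hi0
        rw [Equiv.swap_apply_left]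
        funext t
        have e0 : (eb 0 : Fin 6 → F) 0 = 1 := by simp [eb]
        have e1 : (eb 0 : Fin 6 → F) 1 = 0 := by simp [eb]
        simp only [Pi.add_apply, Pi.smul_apply, smul_eq_mul, e0, e1]
        linear_combination (eb 0 : Fin 6 → F) t * h20
      · by_cases hi1 : i = 1
        · subst hi1
          rw [Equiv.swap_apply_right]
          funext t
          have e0 : (eb 1 : Fin 6 → F) 0 = 0 := by simp [eb]
          have e1 : (eb 1 : Fin 6 → F) 1 = 1 := by simp [eb]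
          simp only [Pi.add_apply, Pi.smul_apply, smul_eq_mul, e0, e1]
          linear_combination (eb 1 : Fin 6 → F) t * h20
        · rw [Equiv.swap_apply_of_ne_of_ne hi0 hi1]
          have e0 : (eb i : Fin 6 → F) 0 = 0 := by simp [eb, Ne.symm hi0]
          have e1 : (eb i : Fin 6 → F) 1 = 0 := by simp [eb, Ne.symm hi1]
          rw [e0, e1]
          simp
  have h4 : ∀ i j k l : Fin 6, i ≠ j → i ≠ k → i ≠ l → j ≠ k → j ≠ l → k ≠ l → ∀ a b c d : F, a ≠ 0 →
      b ≠ 0 → c ≠ 0 → d ≠ 0 → TV hF H (a • eb i + b • eb j + c • eb k + d • eb l) := by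
    intro i j k l hij hik hil hjk hjl hkl a b c d ha hb hc hd
    obtain ⟨π, hπ⟩ := Equiv.Perm.exists_extending_pair (![0, 1, 2, 3] : Fin 4 → Fin 6) ![i, j, k, l]
      (by decide) (by
        intro x y hxy
        fin_cases x <;> fin_cases y <;> simp_all)
    have hπP : π ∈ PP H := hP ▸ Subgroup.mem_top π
    obtain ⟨g, hg, hg'⟩ := hπP
    have h1 := (c1 a b c d ha hb hc hd).conj hg
    rw [act_add, act_add, act_add, act_smul, act_smul, act_smul, act_smul, hg', hg', hg', hg'] at h1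
    have e0 : π 0 = i := hπ 0
    have e1 : π 1 = j := hπ 1
    have e2 : π 2 = k := hπ 2
    have e3 : π 3 = l := hπ 3
    rw [e0, e1, e2, e3] at h1
    exact h1
  refine eq_top_of_TV (by norm_num) ?_ h4
  intro i j hij a b ha hb
  obtain ⟨k, l, hik, hil, hjk, hjl, hkl⟩ : ∃ k l : Fin 6, i ≠ k ∧ i ≠ l ∧ j ≠ k ∧ j ≠ l ∧ k ≠ l := by
    revert i j
    decide
  exact TV_pair hij hik hil hjk hjl hkl (h4 i j k l hij hik hil hjk hjl hkl) ha hb

end Cfsg.Agent.H911.DG
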