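import Cfsg.Agent.H891.DG.Tools
import Cfsg.Agent.H911.DG.PsuOdd
import Cfsg.Agent.H911.DG.PsuTwoB

/-!
# TEAM GEN, S4180, K9c: derivations of `PSU_n(q)`, `n ≥ 4`, in the defining characteristic (helper911)
-/

set_option autoImplicit false

namespace Cfsg.Agent.H911.DG

open Cfsg Cfsg.Agent.LieClassical.HermBasic Cfsg.Agent.LieClassical.HermSiegel
  Cfsg.Agent.LieClassical.HermGen Cfsg.Agent.H137.Herm Cfsg.Agent.H891.DG Cfsg.Agent.H891.DG.Tools

universe u

section Transfer

variable {G : Type*} [Group G] {T : Type u} [Group T] [Finite T] [IsSimpleGroup T] {p : ℕ}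

/-- The torus lemma for a quotient. -/
theorem cohAt_map_torus (hp : p.Prime) (f : G →* T) (hf : Function.Surjective f) {H : Subgroup G}
    (hH : ¬ p ∣ Nat.card H) {n t h : G} (hn : ∀ x ∈ H, n⁻¹ * x * n ∈ H) (hh : h ∈ H)
    (hht : h * t = t * h) (hh1 : f h ≠ 1) (hg : H ⊔ Subgroup.closure {t, n} = ⊤) : CohAt p T := by
  refine cohAt_of_torus hp (H := H.map f) (H₁ := Subgroup.zpowers (f h)) (n := f n) (u := f t) ?_ ?_ ?_ ?_ ?_ ?_
  · intro h1
    exact hH (h1.trans (Subgroup.card_map_dvd H f))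
  · rintro _ ⟨x, hx, rfl⟩
    exact ⟨n⁻¹ * x * n, hn x hx, by rw [map_mul, map_mul, map_inv]⟩
  · rw [Subgroup.zpowers_le]
    exact ⟨h, hh, rfl⟩
  · rw [Ne, Subgroup.zpowers_eq_bot]
    exact hh1
  · rintro _ ⟨k, rfl⟩
    have h1 : Commute (f h) (f t) := by
      show f h * f t = f t * f h
      rw [← map_mul, hht, map_mul]
    exact h1.zpow_left k
  · have h1 := congrArg (Subgroup.map f) hg
    rw [Subgroup.map_sup, MonoidHom.map_closure, Set.image_pair, ← MonoidHom.range_eq_map,
      MonoidHom.range_eq_top.2 hf] at h1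
    exact h1

/-- A group of order prime to `p` and an involution, for a quotient. -/
theorem cohAt_map_inv (hp : p.Prime) (f : G →* T) (hf : Function.Surjective f) {H : Subgroup G}
    (hH : ¬ p ∣ Nat.card H) {c h : G} (hc : c ^ 2 = 1) (hc1 : f c ≠ 1) (hh : h ^ 3 = 1) (hh1 : f h ≠ 1)
    (hg : H ⊔ Subgroup.closure {c} = ⊤) : CohAt p T := by
  refine cohAt_of_coprime_involution hp ?_ (A := H.map f) (c := f c) ?_ ?_ hc1 ?_
  · intro hcomm
    have : IsMulCommutative T := hcomm
    let _ : CommGroup T := { (inferInstance : Group T) with mul_comm := fun a b => hcomm.is_comm.comm a b }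
    have h1 : (Nat.card T).Prime := IsSimpleGroup.prime_card
    have h2 : orderOf (f c) = 2 := orderOf_eq_prime (by rw [← map_pow, hc, map_one]) hc1
    have h3 : orderOf (f h) = 3 := orderOf_eq_prime (by rw [← map_pow, hh, map_one]) hh1
    have h4 : 2 ∣ Nat.card T := h2 ▸ orderOf_dvd_natCard _
    have h5 : 3 ∣ Nat.card T := h3 ▸ orderOf_dvd_natCard _
    rw [Nat.prime_dvd_prime_iff_eq Nat.prime_two h1] at h4
    rw [← h4] at h5
    norm_num at h5
  · intro h1
    exact hH (h1.trans (Subgroup.card_map_dvd H f))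
  · rw [← map_pow, hc, map_one]
  · have h1 := congrArg (Subgroup.map f) hg
    rw [Subgroup.map_sup, MonoidHom.map_closure, Set.image_singleton, ← MonoidHom.range_eq_map,
      MonoidHom.range_eq_top.2 hf] at h1
    exact h1

end Transfer

section Main

variable {T : Type u} [Group T] [Finite T] [IsSimpleGroup T] {F : Type} [Field F] [Fintype F] {n q : ℕ}

theorem even_coh (hF : Fintype.card F = q ^ 2) {m : ℕ} (hm : 2 ≤ m)
    (hq : 4 ≤ q ∨ (3 ≤ m ∧ 3 ≤ q) ∨ (4 ≤ m ∧ q = 2)) {p : ℕ} (hp : p.Prime) [CharP F p]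
    (f : SU (2 * m) F q →* T) (hf : Function.Surjective f)
    (hker : ∀ x, f x = 1 → x ∈ Subgroup.center (SU (2 * m) F q)) : CohAt p T := by
  have : NeZero m := ⟨by omega⟩
  have : NeZero (2 * m) := ⟨by omega⟩
  obtain ⟨v, W⟩ := exists_witt_even (q := q) hF m
  obtain ⟨γ, hγ0, w, hw⟩ := exists_weyl hF W
  have hk := isSiegel_even hF hm W
  obtain ⟨h, hh, hht, hhc⟩ := even_cent hF hm hq W hγ0 hw hk
  refine cohAt_map_torus hp f hf (Tz_coprime W (ZMod.card _) hp) (n := w)
    (Tz_conj' (Equiv.addRight 1) hγ0 hw) hh hht (fun h1 => hhc (hker _ h1)) ?_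
  refine even_gen hF hm W hγ0 hw hk le_sup_left ?_ ?_
  · exact Subgroup.mem_sup_right (Subgroup.subset_closure (by simp))
  · exact Subgroup.mem_sup_right (Subgroup.subset_closure (by simp))

theorem odd_coh (hF : Fintype.card F = q ^ 2) {m : ℕ} (hm : 2 ≤ m) {p : ℕ} (hp : p.Prime) [CharP F p]
    (f : SU (2 * m + 1) F q →* T) (hf : Function.Surjective f)
    (hker : ∀ x, f x = 1 → x ∈ Subgroup.center (SU (2 * m + 1) F q)) : CohAt p T := by
  have : NeZero m := ⟨by omega⟩
  have : NeZero (2 * m) := ⟨by omega⟩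
  obtain ⟨D⟩ := exists_odd (q := q) hF m
  obtain ⟨μ, hk⟩ := D.exists_tau hF
  obtain ⟨h, hh, hht, hhc⟩ := odd_cent D hF hm hk
  have hw : ∀ o : Option (ZMod (2 * m)), act D.w (D.u o) =
      (o.elim D.e (fun _ => 1) : F) • D.u (Equiv.optionCongr (Equiv.addRight (1 : ZMod (2 * m))) o) := by
    rintro (_ | j)
    · exact D.hwd
    · exact D.hw j
  refine cohAt_map_torus hp f hf (Tz_coprime D.W (by rw [Fintype.card_option, ZMod.card]) hp) (n := D.w)
    (Tz_conj' _ ?_ hw) hh hht (fun h1 => hhc (hker _ h1)) ?_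
  · rintro (_ | j)
    · exact D.he
    · exact one_ne_zero
  refine odd_gen D hF hm hk le_sup_left ?_ ?_
  · exact Subgroup.mem_sup_right (Subgroup.subset_closure (by simp))
  · exact Subgroup.mem_sup_right (Subgroup.subset_closure (by simp))

theorem four_three_coh (hF : Fintype.card F = 3 ^ 2) {p : ℕ} (hp : p.Prime) [CharP F p] (hp3 : p = 3)
    (f : SU (2 * 2) F 3 →* T) (hf : Function.Surjective f)
    (hker : ∀ x, f x = 1 → x ∈ Subgroup.center (SU (2 * 2) F 3)) : CohAt p T := by
  obtain ⟨v, W⟩ := exists_witt_even (q := 3) hF 2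
  obtain ⟨γ, hγ0, w, hw⟩ := exists_weyl hF W
  have hk := isSiegel_even hF le_rfl W
  obtain ⟨h, hh, hht, hhc⟩ := four_cent hF W hγ0 hw hk
  refine cohAt_map_torus hp f hf (Mz_coprime W (ZMod.card _) hp (V := Dih 2) ?_) (n := w)
    (Mz_conj' (Equiv.addRight 1) (fun κ hκ => Dih_conj κ hκ) hγ0 hw) hh hht (fun h1 => hhc (hker _ h1)) ?_
  · intro κ hκ h1
    rw [hp3] at h1
    exact Dih_cube hκ h1
  refine even_gen hF le_rfl W hγ0 hw hk ((Tz_le_Mz v (Dih 2)).trans le_sup_left) ?_ ?_
  · exact Subgroup.mem_sup_right (Subgroup.subset_closure (by simp))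
  · exact Subgroup.mem_sup_right (Subgroup.subset_closure (by simp))

theorem four_two_coh (hF : Fintype.card F = 2 ^ 2) {p : ℕ} (hp : p.Prime) [CharP F p]
    (f : SU 4 F 2 →* T) (hf : Function.Surjective f)
    (hker : ∀ x, f x = 1 → x ∈ Subgroup.center (SU 4 F 2)) : CohAt p T := by
  have h20 := two_eq_zero hF
  obtain ⟨z, hz0, hz1, hz⟩ := exists_omega hF
  have hz3 := cube_eq_one hF hz0
  have W := witt_eb (n := 4) hF
  set v : Fin 4 → F := ∑ i, eb i with hv
  have hvt : ∀ t, v t = 1 := by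
    intro t
    rw [hv, Finset.sum_apply, Finset.sum_eq_single t]
    · simp [eb]
    · intro s _ hs; simp [eb, hs.symm]
    · intro h; exact absurd (Finset.mem_univ t) h
  have hk : IsSiegel 2 v 0 (1 : F) := by
    refine ⟨?_, herm_zero_left _, ?_⟩
    · rw [herm_def, Fin.sum_univ_four]
      simp only [hvt]
      linear_combination 2 * h20
    · rw [herm_zero_left]
      linear_combination h20
  have hc : (siegel hF v 0 1 hk) ^ 2 = 1 := by
    rw [pow_two]
    apply ext_act
    intro y
    rw [act_mul, act_siegel, act_siegel, act_one, herm_zero_right hF, herm_zero_right hF, smul_zero, smul_zero]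
    simp only [herm_add_left, herm_smul_left, hk.iso]
    funext t
    simp only [Pi.add_apply, Pi.smul_apply, smul_eq_mul, Pi.zero_apply, herm_zero_left]
    linear_combination (hermForm 4 F 2 y v * v t) * h20
  obtain ⟨h, hh, hh'⟩ := exists_diag hF (![1, 1, z, z ^ 2] : Fin 4 → F) (by
    intro i
    fin_cases i
    · exact one_ne_zero
    · exact one_ne_zero
    · exact hz0
    · exact pow_ne_zero _ hz0) (by
    rw [Fin.prod_univ_four]
    show 1 * 1 * z * z ^ 2 = 1
    linear_combination hz3)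
  have hh3 : h ^ 3 = 1 := by
    apply W.ext (Fintype.card_fin 4)
    intro i
    have h1 : (![1, 1, z, z ^ 2] : Fin 4 → F) i ≠ 0 := by
      fin_cases i
      · exact one_ne_zero
      · exact one_ne_zero
      · exact hz0
      · exact pow_ne_zero _ hz0
    rw [act_pow_eig (hh' i), cube_eq_one hF h1, one_smul, act_one]
  have hne : h * siegel hF v 0 1 hk ≠ siegel hF v 0 1 hk * h := by
    intro h1
    have h2 := congrFun (congrArg (fun t => act t (eb 0)) h1) 2
    simp only [act_mul] at h2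
    have e1 : act (siegel hF v 0 1 hk) (eb 0) = eb 0 + v := by
      rw [act_siegel, herm_zero_right hF, smul_zero, herm_def, Fin.sum_univ_four]
      simp [hvt, eb]
    have e2 : act h (eb 0) = eb 0 := by
      rw [hh']
      exact one_smul F _
    rw [e2, e1, act_add, e2] at h2
    have e3 : (eb 0 + v : Fin 4 → F) 2 = 1 := by
      rw [Pi.add_apply, hvt]
      simp [eb]
    have e4 : (eb 0 + act h v : Fin 4 → F) 2 = z := by
      rw [hv, act_sum, Fin.sum_univ_four, hh', hh', hh', hh']
      simp [eb]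
    rw [e3, e4] at h2
    exact hz1 h2
  refine cohAt_map_inv hp f hf (Tz_coprime W (Fintype.card_fin 4) hp) hc ?_ hh3 ?_ ?_
  · intro h1
    exact hne ((Subgroup.mem_center_iff.1 (hker _ h1) h))
  · intro h1
    exact hne ((Subgroup.mem_center_iff.1 (hker _ h1) _).symm)
  · refine four_two_gen hF le_sup_left ⟨hk, ?_⟩
    exact Subgroup.mem_sup_right (Subgroup.subset_closure (Set.mem_singleton _))

theorem six_two_coh (hF : Fintype.card F = 2 ^ 2) {p : ℕ} (hp : p.Prime) [CharP F p]
    (f : SU 6 F 2 →* T) (hf : Function.Surjective f)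
    (hker : ∀ x, f x = 1 → x ∈ Subgroup.center (SU 6 F 2)) : CohAt p T := by
  have h20 := two_eq_zero hF
  obtain ⟨z, hz0, hz1, hz⟩ := exists_omega hF
  have hz3 := cube_eq_one hF hz0
  have W := witt_eb (n := 6) hF
  set v : Fin 6 → F := eb 0 + eb 1 + eb 2 + eb 3 with hv
  have hk : IsSiegel 2 v 0 (1 : F) := by
    refine ⟨?_, herm_zero_left _, ?_⟩
    · have e0 : v 0 = 1 := by simp [hv, eb]
      have e1 : v 1 = 1 := by simp [hv, eb]
      have e2 : v 2 = 1 := by simp [hv, eb]
      have e3 : v 3 = 1 := by simp [hv, eb]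
      have e4 : v 4 = 0 := by simp [hv, eb]
      have e5 : v 5 = 0 := by simp [hv, eb]
      rw [herm_def, Fin.sum_univ_six, e0, e1, e2, e3, e4, e5]
      linear_combination 2 * h20
    · rw [herm_zero_left]
      linear_combination h20
  obtain ⟨w, hw⟩ := W.exists_mono hF (Fintype.card_fin 6) (finRotate 6) (fun _ => rfl) (fun _ => (1 : F))
    (fun _ => by rw [one_pow, one_mul]) (by
      rw [Finset.prod_const_one, mul_one]
      rcases Int.units_eq_one_or (Equiv.Perm.sign (finRotate 6)) with h | h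
      · rw [h]; simp
      · rw [h]
        push_cast
        linear_combination (-1 : F) * h20)
  obtain ⟨h, hh, hh'⟩ := exists_diag hF (![1, 1, 1, 1, z, z ^ 2] : Fin 6 → F) (by
    intro i
    fin_cases i
    · exact one_ne_zero
    · exact one_ne_zero
    · exact one_ne_zero
    · exact one_ne_zero
    · exact hz0
    · exact pow_ne_zero _ hz0) (by
    rw [Fin.prod_univ_six]
    show 1 * 1 * 1 * 1 * z * z ^ 2 = 1
    linear_combination hz3)
  have hhv : act h v = (1 : F) • v := by
    rw [hv, act_add, act_add, act_add, hh', hh', hh', hh']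
    simp
  have hhc : h ∉ Subgroup.center (SU 6 F 2) := by
    refine not_mem_center (w := w) (x := eb 3) (y := eb 4) (a := 1) (b := z) (g := 1) ?_ one_ne_zero ?_ ?_ ?_ hz1.symm
    · exact witt_ne_zero W 4
    · exact hw 3
    · exact hh' 3
    · exact hh' 4
  refine cohAt_map_torus hp f hf (Tz_coprime W (Fintype.card_fin 6) hp) (n := w) (h := h)
    (t := siegel hF v 0 1 hk)
    (Tz_conj' (finRotate 6) (fun _ => one_ne_zero) hw) hh ?_ (fun h1 => hhc (hker _ h1)) ?_
  · refine comm_of_eig hk (s := 1) (t := 1) hhv (by rw [act_zero, smul_zero]) ?_ ?_ (Or.inl ?_)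
    · norm_num
    · norm_num
    · norm_num
  · refine six_two_gen hF le_sup_left (w := w) ?_ (fun i => by rw [hw, one_smul]) ⟨hk, ?_⟩
    · exact Subgroup.mem_sup_right (Subgroup.subset_closure (by simp))
    · exact Subgroup.mem_sup_right (Subgroup.subset_closure (Set.mem_insert _ _))

/-- K9c. -/
theorem cohAt_psu (hn : 4 ≤ n) (hF : Fintype.card F = q ^ 2) {p : ℕ} (hp : p.Prime) [CharP F p]
    (e : T ≃* PSU n F q) : CohAt p T := by
  set f : SU n F q →* T := (e.symm : PSU n F q →* T).comp (QuotientGroup.mk' (Subgroup.center (SU n F q))) with hfd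
  have hf : Function.Surjective f := e.symm.surjective.comp (QuotientGroup.mk'_surjective _)
  have hker : ∀ x, f x = 1 → x ∈ Subgroup.center (SU n F q) := by
    intro x hx
    have h1 : e.symm (QuotientGroup.mk' (Subgroup.center (SU n F q)) x) = 1 := hx
    rw [MulEquiv.map_eq_one_iff] at h1
    exact (QuotientGroup.eq_one_iff x).1 h1
  clear_value f
  have h2 := two_le hF
  rcases Nat.even_or_odd' n with ⟨m, h | h⟩
  · subst h
    by_cases hq : 4 ≤ q ∨ (3 ≤ m ∧ 3 ≤ q) ∨ (4 ≤ m ∧ q = 2)
    · exact even_coh hF (by omega) hq hp f hf hker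
    · have h3 : (m = 2 ∧ q = 3) ∨ (m = 2 ∧ q = 2) ∨ (m = 3 ∧ q = 2) := by omega
      rcases h3 with ⟨rfl, rfl⟩ | ⟨rfl, rfl⟩ | ⟨rfl, rfl⟩
      · have hp3 : p = 3 := by
          have h4 : ((Fintype.card F : ℕ) : F) = 0 := FiniteField.cast_card_eq_zero F
          have h5 : p ∣ 3 ^ 2 := by
            rw [← hF]
            exact (CharP.cast_eq_zero_iff F p _).1 h4
          exact (Nat.prime_dvd_prime_iff_eq hp Nat.prime_three).1 (hp.dvd_of_dvd_pow h5)
        exact four_three_coh hF hp hp3 f hf hker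
      · exact four_two_coh hF hp f hf hker
      · exact six_two_coh hF hp f hf hker
  · subst h
    exact odd_coh hF (by omega) hp f hf hker

end Main

end Cfsg.Agent.H911.DG
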